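import Cfsg.Agent.Helper56.Tits.Struct
import Cfsg.Agent.Helper56.Tits.Invol

/-!
# The involutions of the Prelude group `²F₄(2)` lie in the Tits group (helper56)

Transfer of `no_invol` (permutations of 4060 points) to the matrix group `twistedF4 (ZMod 2) 1`
through the isomorphism `θ` of `Struct.lean`.
-/

set_option autoImplicit false

namespace Cfsg.Agent.Helper56.Tits

open Cfsg.Lie Cfsg.Agent.Helper28 Cfsg.Agent.Helper56.J3 Cfsg.Agent.Helper56.Ru Cfsg.Agent.Helper51.BitMat56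

attribute [local irreducible] Cfsg.Agent.Helper56.Ru.gen Cfsg.Agent.Helper56.Ru.fz
  Cfsg.Agent.Helper56.Tits.tgen

/-- conjugation by `fz` on the Tits group corresponds under `θ` to conjugation by `tgen 4` -/
theorem theta_conj (θ : Gk gen 4 →* GL chevF4.Idx (ZMod 2))
    (hθ : ∀ c (hc : c < 4), θ ⟨gen c, gen_mem_Gk gen hc⟩ = tgen c)
    (x : Equiv.Perm (Fin 4060)) (hx : x ∈ Gk gen 4) :
    ∃ t1 : Gk gen 4, (t1 : Equiv.Perm (Fin 4060)) = fz * x * fz⁻¹ ∧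
      θ t1 = tgen 4 * θ ⟨x, hx⟩ * (tgen 4)⁻¹ := by
  refine Subgroup.closure_induction (p := fun x hx => ∃ t1 : Gk gen 4,
    (t1 : Equiv.Perm (Fin 4060)) = fz * x * fz⁻¹ ∧ θ t1 = tgen 4 * θ ⟨x, hx⟩ * (tgen 4)⁻¹)
    ?_ ?_ ?_ ?_ hx
  · rintro _ ⟨c, hc, rfl⟩
    have hl : ∀ a ∈ cjW.getD c [], a < 4 := cjW_letters4 c hc
    refine ⟨((cjW.getD c []).map (valK gen 4)).prod, ?_, ?_⟩
    · rw [coe_word _ hl, cj_perm c hc, mul_inv_cancel_right]
    · rw [theta_word θ hθ _ hl]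
      have h1 : θ ⟨gen c, Subgroup.subset_closure ⟨c, hc, rfl⟩⟩ = tgen c := hθ c hc
      rw [h1, tgen_cj c hc, mul_inv_cancel_right]
  · refine ⟨1, ?_, ?_⟩
    · rw [Subgroup.coe_one, mul_one, mul_inv_cancel]
    · have h1 : θ ⟨1, Subgroup.one_mem _⟩ = 1 := map_one θ
      rw [map_one, h1, mul_one, mul_inv_cancel]
  · rintro a b ha hb ⟨ta, hta, hta'⟩ ⟨tb, htb, htb'⟩
    refine ⟨ta * tb, ?_, ?_⟩
    · rw [Subgroup.coe_mul, hta, htb]; group
    · have h1 : θ ⟨a * b, Subgroup.mul_mem _ ha hb⟩ = θ ⟨a, ha⟩ * θ ⟨b, hb⟩ :=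
        map_mul θ ⟨a, ha⟩ ⟨b, hb⟩
      rw [map_mul, hta', htb', h1]; group
  · rintro a ha ⟨ta, hta, hta'⟩
    refine ⟨ta⁻¹, ?_, ?_⟩
    · rw [Subgroup.coe_inv, hta]; group
    · have h1 : θ ⟨a⁻¹, Subgroup.inv_mem _ ha⟩ = (θ ⟨a, ha⟩)⁻¹ := map_inv θ ⟨a, ha⟩
      rw [map_inv, hta', h1]; group

/-- An element of the Prelude group `²F₄(2)` whose square is the identity lies in the subgroup
generated by `tgen 0, …, tgen 3`. -/
theorem invol_mem (g : GL chevF4.Idx (ZMod 2)) (hg : g ∈ twistedF4 (ZMod 2) 1)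
    (h2 : g * g = 1) : g ∈ Gk tgen 4 := by
  by_contra hgK
  obtain ⟨θ, hθ, hinj, hrange⟩ := exists_theta
  have hall := Cfsg.Agent.Helper51.IndexTwo56.mem_or_of_closure (Gk tgen 4) (gM '' {c | c < 8})
    (tgen 4) tS_gens tS_conj tS_conj' tS_sq (x := g) (by
      have hg' := hg
      rw [twistedF4_eq] at hg'
      exact hg')
  rcases hall with h | h
  · exact hgK h
  · rw [← hrange] at h
    obtain ⟨t, ht⟩ := h
    have hg' : g = tgen 4 * θ t := by rw [ht]; group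
    obtain ⟨t1, ht1, hθ1⟩ := theta_conj θ hθ t.1 t.2
    have h0 : θ ⟨gen 0, gen_mem_Gk gen (by decide)⟩ = tgen 0 := hθ 0 (by decide)
    have key : θ (t1 * ⟨gen 0, gen_mem_Gk gen (by decide)⟩ * t) = 1 := by
      rw [map_mul, map_mul, hθ1, h0, ← tgen_sq4, ← h2, hg']
      group
    have key2 : t1 * ⟨gen 0, gen_mem_Gk gen (by decide)⟩ * t = 1 :=
      hinj (by rw [key, map_one])
    have key3 : fz * t.1 * fz⁻¹ * gen 0 * t.1 = 1 := by
      have h3 := congrArg Subtype.val key2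
      rw [Subgroup.coe_mul, Subgroup.coe_mul, ht1] at h3
      exact h3
    apply no_invol (fz * t.1)
    · exact Subgroup.mul_mem _ fz_mem_Q2 (T_le_Q2 t.2)
    · intro hmem
      apply fz_not_mem
      have : fz = fz * t.1 * (t.1)⁻¹ := by group
      rw [this]
      exact Subgroup.mul_mem _ hmem (Subgroup.inv_mem _ t.2)
    · rw [← fz_sq] at key3
      calc fz * t.1 * (fz * t.1) = fz * t.1 * fz⁻¹ * (fz * fz) * t.1 := by group
        _ = 1 := key3

end Cfsg.Agent.Helper56.Tits
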