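import Mathlib

/-!
# A criterion excluding faithful 2-transitive actions (helper56)

`no_two_trans`: a group of order `17971200` (the order of the Tits group) containing
* a subgroup `E` of order 27 all of whose non-identity elements are conjugate to one element `e₀`,
* a subgroup `S` of order 25 all of whose non-identity elements are conjugate to one element `u₀`,
* an element `x` of order 13 and an element `y` of order 3 with `y x y⁻¹ ∈ ⟨x⟩`,

has no faithful 2-transitive action on a finite set with at least three points.  The proof is a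
count of fixed points (Burnside's lemma for `E` and `S`) after listing the `n` with
`n (n - 1) ∣ 17971200`.
-/

set_option autoImplicit false

namespace Cfsg.Agent.Helper56.Tits

open MulAction

/-- Burnside's lemma for a subgroup all of whose non-identity elements have the same number `F` of
fixed points. -/
theorem uniform_burnside {G : Type*} [Group G] [Finite G] {Ω : Type*} [Fintype Ω] [MulAction G Ω]
    (H : Subgroup G) (F : ℕ)
    (hF : ∀ h ∈ H, h ≠ 1 → Nat.card (fixedBy Ω h) = F) :
    Fintype.card Ω + (Nat.card H - 1) * F =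
      Nat.card (Quotient (orbitRel H Ω)) * Nat.card H := by
  classical
  have : Fintype H := Fintype.ofFinite H
  have : Fintype (Quotient (orbitRel H Ω)) := Fintype.ofFinite _
  have hB := sum_card_fixedBy_eq_card_orbits_mul_card_group H Ω
  rw [Nat.card_eq_fintype_card, Nat.card_eq_fintype_card, ← hB,
    ← Finset.add_sum_erase Finset.univ _ (Finset.mem_univ (1 : H))]
  congr 1
  · have h1 : fixedBy Ω (1 : H) = Set.univ := by
      ext a
      simp only [mem_fixedBy, one_smul, Set.mem_univ]
    rw [← Nat.card_eq_fintype_card, ← Nat.card_eq_fintype_card, h1]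
    exact (Nat.card_congr (Equiv.Set.univ Ω)).symm
  · rw [Finset.sum_congr rfl (g := fun _ => F)]
    · rw [Finset.sum_const, Finset.card_erase_of_mem (Finset.mem_univ _), Finset.card_univ,
        smul_eq_mul]
    · intro h hh
      have hne : (h : G) ≠ 1 := by
        intro h1
        exact (Finset.mem_erase.mp hh).1 (Subtype.ext h1)
      have := hF h.1 h.2 hne
      rw [← Nat.card_eq_fintype_card]
      exact this

/-- `f` holds on the `2 ^ d` numbers from `lo` on -/
def chkBin (f : ℕ → Bool) : ℕ → ℕ → Bool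
  | 0, lo => f lo
  | d + 1, lo => chkBin f d lo && chkBin f d (lo + 2 ^ d)

theorem chkBin_spec (f : ℕ → Bool) : ∀ (d lo : ℕ), chkBin f d lo = true →
    ∀ n, lo ≤ n → n < lo + 2 ^ d → f n = true := by
  intro d
  induction d with
  | zero =>
    intro lo h n h1 h2
    have : n = lo := by
      rw [pow_zero] at h2
      omega
    rw [this]
    exact h
  | succ d ih =>
    intro lo h n h1 h2
    simp only [chkBin, Bool.and_eq_true] at h
    rw [pow_succ] at h2
    by_cases hn : n < lo + 2 ^ d
    · exact ih lo h.1 n h1 hn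
    · exact ih (lo + 2 ^ d) h.2 n (by omega) (by omega)

/-- the test for one degree -/
def ttOne (n : ℕ) : Bool :=
  !(17971200 % (n * (n - 1)) == 0) || Nat.blt n 27 || n == 27 || n == 40 || n == 65

theorem two_trans_chk : chkBin ttOne 13 0 = true := by decide +kernel

theorem two_trans_list : ∀ n < 4241, n * (n - 1) ∣ 17971200 →
    n < 27 ∨ n = 27 ∨ n = 40 ∨ n = 65 := by
  intro n hn hd
  have h := chkBin_spec ttOne 13 0 two_trans_chk n (Nat.zero_le n) (by norm_num; omega)
  unfold ttOne at h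
  simp only [Bool.or_eq_true, Bool.not_eq_true', beq_iff_eq, Nat.blt_eq, beq_eq_false_iff_ne,
    ne_eq] at h
  rcases h with (((h | h) | h) | h) | h
  · exact absurd (Nat.mod_eq_zero_of_dvd hd) h
  · exact Or.inl h
  · exact Or.inr (Or.inl h)
  · exact Or.inr (Or.inr (Or.inl h))
  · exact Or.inr (Or.inr (Or.inr h))

theorem div25 : ∀ d ≤ 25, d ∣ 25 → d ≠ 25 → 5 ≤ 25 / d := by decide

theorem no_two_trans {G : Type*} [Group G] [Finite G]
    (hcard : Nat.card G = 17971200)
    (E : Subgroup G) (hE : Nat.card E = 27) (e₀ : G) (he₀ : e₀ ≠ 1)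
    (hEc : ∀ e ∈ E, e ≠ 1 → ∃ g : G, g * e * g⁻¹ = e₀)
    (S : Subgroup G) (hS : Nat.card S = 25) (u₀ : G)
    (hSc : ∀ e ∈ S, e ≠ 1 → ∃ g : G, g * e * g⁻¹ = u₀)
    (x y : G) (hx : x ^ 13 = 1) (hx1 : x ≠ 1) (hy : y ^ 3 = 1) (hy1 : y ≠ 1) (k : ℕ)
    (hxy : y * x * y⁻¹ = x ^ k)
    {Ω : Type*} [Fintype Ω] [MulAction G Ω] [FaithfulSMul G Ω] (hΩ : 3 ≤ Fintype.card Ω) :
    ¬ IsMultiplyPretransitive G Ω 2 := by
  intro h2
  classical
  have htr : IsPretransitive G Ω := isPretransitive_of_is_two_pretransitive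
  obtain ⟨n, hn⟩ : ∃ n, n = Fintype.card Ω := ⟨_, rfl⟩
  rw [← hn] at hΩ
  have hnc : Nat.card Ω = n := by rw [Nat.card_eq_fintype_card, hn]
  -- `n (n - 1)` divides the order
  have hdiv : n * (n - 1) ∣ 17971200 := by
    obtain ⟨a, b, hab⟩ : ∃ a b : Ω, a ≠ b := by
      have : 1 < Fintype.card Ω := by omega
      exact Fintype.exists_pair_of_one_lt_card this
    have hs : ({a, b} : Set Ω).ncard = 2 := Set.ncard_pair hab
    have hidx := h2.index_of_fixingSubgroup_mul hs
    rw [hnc] at hidx
    obtain ⟨m, rfl⟩ : ∃ m, n = m + 2 := ⟨n - 2, by omega⟩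
    have hf : (m + 2).factorial = (m + 2) * (m + 1) * m.factorial := by
      rw [Nat.factorial_succ, Nat.factorial_succ, mul_assoc]
    rw [hf, Nat.add_sub_cancel] at hidx
    have hi : (fixingSubgroup G ({a, b} : Set Ω)).index = (m + 2) * (m + 1) :=
      Nat.eq_of_mul_eq_mul_right (Nat.factorial_pos m) hidx
    have e1 : m + 2 - 1 = m + 1 := rfl
    rw [e1]
    have := Subgroup.index_dvd_card (fixingSubgroup G ({a, b} : Set Ω))
    rw [hi, hcard] at this
    exact this
  have hstab : ∀ ω : Ω, Nat.card (stabilizer G ω) * n = 17971200 := by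
    intro ω
    have h1 := Subgroup.index_mul_card (stabilizer G ω)
    rw [index_stabilizer_of_transitive G ω, hnc, hcard] at h1
    rw [mul_comm]
    exact h1
  have hlist : n < 27 ∨ n = 27 ∨ n = 40 ∨ n = 65 := by
    refine two_trans_list n ?_ hdiv
    by_contra hlt
    have h1 : 4241 ≤ n := by omega
    have h2 : n * (n - 1) ≤ 17971200 := Nat.le_of_dvd (by norm_num) hdiv
    have h3 : 4241 * 4240 ≤ n * (n - 1) := Nat.mul_le_mul h1 (by omega)
    omega
  have hconj : ∀ g e : G, Nat.card (fixedBy Ω (g * e * g⁻¹)) = Nat.card (fixedBy Ω e) := by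
    intro g e
    refine Nat.card_congr ⟨fun a => ⟨g⁻¹ • a.1, ?_⟩, fun a => ⟨g • a.1, ?_⟩, ?_, ?_⟩
    · have ha : (g * e * g⁻¹) • a.1 = a.1 := a.2
      show e • g⁻¹ • a.1 = g⁻¹ • a.1
      conv_rhs => rw [← ha]
      simp only [mul_smul, inv_smul_smul]
    · have ha : e • a.1 = a.1 := a.2
      show (g * e * g⁻¹) • g • a.1 = g • a.1
      simp only [mul_smul, inv_smul_smul, ha]
    · intro a
      apply Subtype.ext
      show g • g⁻¹ • a.1 = a.1
      rw [smul_inv_smul]
    · intro a
      apply Subtype.ext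
      show g⁻¹ • g • a.1 = a.1
      rw [inv_smul_smul]
  have hle : ∀ e : G, Nat.card (fixedBy Ω e) ≤ n := by
    intro e
    rw [← hnc]
    exact Nat.card_le_card_of_injective Subtype.val Subtype.val_injective
  have hfaith : ∀ e : G, Nat.card (fixedBy Ω e) = n → e = 1 := by
    intro e he
    apply FaithfulSMul.eq_of_smul_eq_smul (α := Ω)
    intro a
    rw [one_smul]
    by_contra hne
    have hlt : Fintype.card {a : Ω // e • a = a} < Fintype.card Ω :=
      Fintype.card_subtype_lt (p := fun a : Ω => e • a = a) hne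
    have heq : Nat.card (fixedBy Ω e) = Fintype.card {a : Ω // e • a = a} := by
      rw [← Nat.card_eq_fintype_card]
      rfl
    omega
  have hBE := uniform_burnside (Ω := Ω) E (Nat.card (fixedBy Ω e₀)) (fun e he he1 => by
    obtain ⟨g, hg⟩ := hEc e he he1
    rw [← hg, hconj])
  rw [hE, ← hn] at hBE
  have hBS := uniform_burnside (Ω := Ω) S (Nat.card (fixedBy Ω u₀)) (fun e he he1 => by
    obtain ⟨g, hg⟩ := hSc e he he1
    rw [← hg, hconj])
  rw [hS, ← hn] at hBS
  have hFE := hle e₀
  have hFS := hle u₀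
  rcases hlist with h | h | h
  · -- `n < 27`: the elements of order 3 act trivially
    have : Nat.card (fixedBy Ω e₀) = n := by omega
    exact he₀ (hfaith e₀ this)
  · -- `n = 27`: an element of order 13 and its normaliser
    have : Fact (Nat.Prime 13) := ⟨by norm_num⟩
    have : Fact (Nat.Prime 3) := ⟨by norm_num⟩
    obtain ⟨σ, hσd⟩ : ∃ σ : Equiv.Perm Ω, σ = MulAction.toPermHom G Ω x := ⟨_, rfl⟩
    have hσ : σ ^ 13 ^ 1 = 1 := by
      rw [pow_one, hσd, ← map_pow, hx, map_one]
    have hmod := Equiv.Perm.card_compl_support_modEq hσ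
    have hmem : ∀ a : Ω, a ∈ σ.supportᶜ ↔ x • a = a := by
      intro a
      rw [Finset.mem_compl, Equiv.Perm.mem_support, not_not, hσd]
      rfl
    have hne : σ.supportᶜ.card ≠ 27 := by
      intro hc
      apply hx1
      have huniv : σ.supportᶜ = Finset.univ :=
        Finset.eq_univ_of_card _ (by rw [hc, ← hn, h])
      apply FaithfulSMul.eq_of_smul_eq_smul (α := Ω)
      intro a
      rw [one_smul]
      exact (hmem a).mp (by rw [huniv]; exact Finset.mem_univ a)
    have hle27 : σ.supportᶜ.card ≤ 27 := by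
      have := Finset.card_le_univ σ.supportᶜ
      omega
    have h3 : ¬ 3 ∣ σ.supportᶜ.card := by
      have hm : σ.supportᶜ.card % 13 = Fintype.card Ω % 13 := hmod
      rw [← hn, h] at hm
      omega
    have hxk : ∀ (j : ℕ) (a : Ω), x • a = a → x ^ j • a = a := by
      intro j a ha
      induction j with
      | zero => rw [pow_zero, one_smul]
      | succ j ih => rw [pow_succ, mul_smul, ha, ih]
    have hyinv : ∀ a : Ω, x • a = a → x • (y⁻¹ • a) = y⁻¹ • a := by
      intro a ha
      have h1 : x • (y⁻¹ • a) = y⁻¹ • ((y * x * y⁻¹) • a) := by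
        simp only [mul_smul, inv_smul_smul]
      rw [h1, hxy, hxk k a ha]
    have hy3 : ∀ a : Ω, y⁻¹ • y⁻¹ • y⁻¹ • a = a := by
      intro a
      rw [smul_smul, smul_smul]
      have : y⁻¹ * y⁻¹ * y⁻¹ = 1 := by
        rw [← pow_two, ← pow_succ, inv_pow, hy, inv_one]
      rw [this, one_smul]
    obtain ⟨τ, hτd⟩ : ∃ τ : Equiv.Perm {a : Ω // a ∈ σ.supportᶜ},
        ∀ a, ((τ a : {a : Ω // a ∈ σ.supportᶜ}) : Ω) = y⁻¹ • (a : Ω) := by
      refine ⟨Equiv.Perm.subtypePerm (MulAction.toPerm y⁻¹) ?_, fun a => rfl⟩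
      intro a
      constructor
      · intro ha
        rw [hmem] at ha ⊢
        have := hyinv _ (hyinv _ ha)
        rw [MulAction.toPerm_apply, hy3] at this
        exact this
      · intro ha
        rw [hmem] at ha ⊢
        exact hyinv a ha
    have hτ : τ ^ 3 ^ 1 = 1 := by
      ext a
      rw [pow_one, pow_succ, pow_two, Equiv.Perm.mul_apply, Equiv.Perm.mul_apply, hτd, hτd, hτd,
        Equiv.Perm.one_apply]
      exact hy3 a
    have hcardA : Fintype.card {a : Ω // a ∈ σ.supportᶜ} = σ.supportᶜ.card := Fintype.card_coe _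
    obtain ⟨a, ha⟩ := Equiv.Perm.exists_fixed_point_of_prime (p := 3) (n := 1)
      (by rw [hcardA]; exact h3) hτ
    have hya : y⁻¹ • (a : Ω) = a := by
      rw [← hτd, ha]
    have hystab : y ∈ stabilizer G (a : Ω) := by
      rw [mem_stabilizer_iff]
      exact (inv_smul_eq_iff.mp hya).symm
    have hord : orderOf y = 3 := orderOf_eq_prime hy hy1
    have hd : 3 ∣ Nat.card (stabilizer G (a : Ω)) := by
      rw [← hord]
      exact Subgroup.orderOf_dvd_natCard _ hystab
    have hst := hstab (a : Ω)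
    obtain ⟨c, hc⟩ := hd
    rw [hc, h] at hst
    omega
  · -- `n = 40` or `n = 65`: the subgroup of order 25 has no fixed point
    have hSfix : ∀ ω : Ω, Nat.card (stabilizer S ω) ≠ 25 := by
      intro ω hc
      have htop : stabilizer S ω = ⊤ := Subgroup.eq_top_of_card_eq _ (by rw [hc, hS])
      have hle' : S ≤ stabilizer G ω := by
        intro s hs
        have hm : (⟨s, hs⟩ : S) ∈ stabilizer S ω := by rw [htop]; trivial
        exact hm
      have hdvd : 25 ∣ Nat.card (stabilizer G ω) := by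
        rw [← hS]
        exact Subgroup.card_dvd_of_le hle'
      have hst := hstab ω
      obtain ⟨c, hc⟩ := hdvd
      rw [hc] at hst
      rcases h with h | h <;> rw [h] at hst <;> omega
    have : Fintype S := Fintype.ofFinite S
    have : Fintype (Quotient (orbitRel S Ω)) := Fintype.ofFinite _
    have hcf := card_eq_sum_card_group_div_card_stabilizer S Ω
    have h5 : ∀ q : Quotient (orbitRel S Ω),
        5 ≤ Fintype.card S / Fintype.card (stabilizer S q.out) := by
      intro q
      have hd : Nat.card (stabilizer S q.out) ∣ 25 := by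
        rw [← hS]
        exact Subgroup.card_subgroup_dvd_card _
      have hn' := hSfix q.out
      rw [← Nat.card_eq_fintype_card, ← Nat.card_eq_fintype_card, hS]
      exact div25 _ (Nat.le_of_dvd (by norm_num) hd) hd hn'
    have hsum : 5 * Nat.card (Quotient (orbitRel S Ω)) ≤ n := by
      rw [hn, hcf, Nat.card_eq_fintype_card]
      calc 5 * Fintype.card (Quotient (orbitRel S Ω))
          = ∑ _q : Quotient (orbitRel S Ω), 5 := by
            rw [Finset.sum_const, Finset.card_univ, smul_eq_mul, mul_comm]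
        _ ≤ _ := Finset.sum_le_sum (fun q _ => h5 q)
    omega

/-- transport of `no_two_trans` along an injective homomorphism into a group where the data live -/
theorem no_two_trans' {G P : Type*} [Group G] [Finite G] [Group P] (ι : G →* P)
    (hι : Function.Injective ι) (hcard : Nat.card G = 17971200)
    (E : Subgroup P) (hE : Nat.card E = 27) (hEr : E ≤ ι.range) (e₀ : P) (he₀ : e₀ ≠ 1)
    (he₀r : e₀ ∈ ι.range)
    (hEc : ∀ e ∈ E, e ≠ 1 → ∃ g ∈ ι.range, g * e * g⁻¹ = e₀)
    (S : Subgroup P) (hS : Nat.card S = 25) (hSr : S ≤ ι.range) (u₀ : P) (hu₀r : u₀ ∈ ι.range)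
    (hSc : ∀ e ∈ S, e ≠ 1 → ∃ g ∈ ι.range, g * e * g⁻¹ = u₀)
    (x y : P) (hxr : x ∈ ι.range) (hyr : y ∈ ι.range)
    (hx : x ^ 13 = 1) (hx1 : x ≠ 1) (hy : y ^ 3 = 1) (hy1 : y ≠ 1) (k : ℕ)
    (hxy : y * x * y⁻¹ = x ^ k)
    {Ω : Type*} [Fintype Ω] [MulAction G Ω] [FaithfulSMul G Ω] (hΩ : 3 ≤ Fintype.card Ω) :
    ¬ IsMultiplyPretransitive G Ω 2 := by
  obtain ⟨e₀', rfl⟩ := he₀r
  obtain ⟨u₀', rfl⟩ := hu₀r
  obtain ⟨x', rfl⟩ := hxr
  obtain ⟨y', rfl⟩ := hyr
  have hcE : Nat.card (E.comap ι) = 27 := by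
    rw [← Subgroup.card_map_of_injective hι, Subgroup.map_comap_eq_self hEr, hE]
  have hcS : Nat.card (S.comap ι) = 25 := by
    rw [← Subgroup.card_map_of_injective hι, Subgroup.map_comap_eq_self hSr, hS]
  refine no_two_trans hcard (E.comap ι) hcE e₀' ?_ ?_ (S.comap ι) hcS u₀' ?_ x' y' ?_ ?_ ?_ ?_ k
    ?_ hΩ
  · intro h
    exact he₀ (by rw [h, map_one])
  · intro e he he1
    obtain ⟨g, ⟨g', rfl⟩, hg⟩ := hEc (ι e) he (fun h => he1 (hι (by rw [h, map_one])))
    exact ⟨g', hι (by rw [map_mul, map_mul, map_inv]; exact hg)⟩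
  · intro e he he1
    obtain ⟨g, ⟨g', rfl⟩, hg⟩ := hSc (ι e) he (fun h => he1 (hι (by rw [h, map_one])))
    exact ⟨g', hι (by rw [map_mul, map_mul, map_inv]; exact hg)⟩
  · exact hι (by rw [map_pow, hx, map_one])
  · intro h
    exact hx1 (by rw [h, map_one])
  · exact hι (by rw [map_pow, hy, map_one])
  · intro h
    exact hy1 (by rw [h, map_one])
  · exact hι (by rw [map_mul, map_mul, map_inv, map_pow]; exact hxy)

/-- a finite list of elements closed under multiplication (by a table) is a subgroup -/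
theorem subgroup_of_table {G : Type*} [Group G] [Finite G] (n : ℕ) (f : ℕ → G) (m : ℕ → ℕ → ℕ)
    (hn : 0 < n) (h0 : f 0 = 1)
    (hm : ∀ i < n, ∀ j < n, m i j < n ∧ f i * f j = f (m i j))
    (hinj : ∀ i < n, ∀ j < n, f i = f j → i = j) :
    ∃ H : Subgroup G, Nat.card H = n ∧ ∀ e, e ∈ H ↔ ∃ i < n, e = f i := by
  have hpow : ∀ e : G, (∃ i < n, e = f i) → ∀ k : ℕ, ∃ i < n, e ^ k = f i := by
    intro e he k
    induction k with
    | zero => exact ⟨0, hn, by rw [pow_zero, h0]⟩
    | succ k ih =>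
      obtain ⟨i, hi, hei⟩ := ih
      obtain ⟨j, hj, hej⟩ := he
      refine ⟨m i j, (hm i hi j hj).1, ?_⟩
      rw [pow_succ, hei, ← (hm i hi j hj).2, ← hej]
  let H : Subgroup G :=
    { carrier := {e | ∃ i < n, e = f i}
      mul_mem' := by
        rintro a b ⟨i, hi, rfl⟩ ⟨j, hj, rfl⟩
        exact ⟨m i j, (hm i hi j hj).1, (hm i hi j hj).2⟩
      one_mem' := ⟨0, hn, h0.symm⟩
      inv_mem' := by
        intro e he
        have h1 : e⁻¹ = e ^ (orderOf e - 1) := by
          apply inv_eq_of_mul_eq_one_right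
          rw [← pow_succ', Nat.sub_add_cancel (orderOf_pos e), pow_orderOf_eq_one]
        show ∃ i < n, e⁻¹ = f i
        rw [h1]
        exact hpow e he _ }
  refine ⟨H, ?_, fun e => Iff.rfl⟩
  have hbij : Function.Bijective (fun i : Fin n => (⟨f i.val, ⟨i.val, i.isLt, rfl⟩⟩ : H)) := by
    constructor
    · intro i j hij
      have : f i.val = f j.val := congrArg Subtype.val hij
      exact Fin.ext (hinj i.val i.isLt j.val j.isLt this)
    · rintro ⟨e, i, hi, rfl⟩
      exact ⟨⟨i, hi⟩, rfl⟩
  rw [← Nat.card_congr (Equiv.ofBijective _ hbij), Nat.card_eq_fintype_card, Fintype.card_fin]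

end Cfsg.Agent.Helper56.Tits
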