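import Cfsg.Agent.Helper56.Tits.Struct
import Cfsg.Agent.Helper56.Tits.Invol
import Cfsg.Agent.Helper56.Tits.TwoTrans
import Cfsg.Agent.Helper56.Tits.TwoData

/-!
# The Tits group has no faithful 2-transitive action (helper56)

The points `2305, 2306, 1` are a base for `²F₄(2)` on 4060 points (`base_triv`), so an identity
between words in the generators of the Tits group is checked on three points (`word_eq`).  This
gives the subgroups of order 27 and 25 and the elements of order 13 and 3 required by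
`no_two_trans'`.
-/

set_option autoImplicit false

namespace Cfsg.Agent.Helper56.Tits

open Cfsg.Lie Cfsg.Agent.Helper28 Cfsg.Agent.Helper56.J3 Cfsg.Agent.Helper56.Ru

attribute [local irreducible] Cfsg.Agent.Helper56.Ru.gen Cfsg.Agent.Helper56.Ru.fz

theorem invA_zero : nthL invA 0 = [] := by decide +kernel

theorem invB_zero : nthL invB 0 = [] := by decide +kernel

/-- an element of `Q2` fixing the three points `2305, 2306, 1` is the identity -/
theorem base_triv (u : Equiv.Perm (Fin 4060)) (hu : u ∈ Q2)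
    (h1 : u ⟨2305, lt2305⟩ = ⟨2305, lt2305⟩) (h2 : u ⟨2306, lt2306⟩ = ⟨2306, lt2306⟩)
    (h3 : u ⟨1, lt1⟩ = ⟨1, lt1⟩) : u = 1 := by
  obtain ⟨i, hi, j, hj, rfl⟩ := P1_elems u hu h1
  have hA := invA_spec i hi
  have hB := invB_spec j hj
  have e2 : (((((nthL invA i).map qg).prod * ((nthL invB j).map qg).prod)
      ⟨2306, lt2306⟩ : Fin 4060) : ℕ) = 2306 + i := by
    rw [Equiv.Perm.mul_apply, qword_apply, qword_apply]
    show walkA QT (nthL invA i) (walkA QT (nthL invB j) 2306) = 2306 + i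
    rw [hB.2, hA.2]
  rw [h2] at e2
  have hi0 : i = 0 := by
    have : (2306 : ℕ) = 2306 + i := e2
    omega
  subst hi0
  rw [invA_zero, List.map_nil, List.prod_nil, one_mul] at h3 ⊢
  have e3 : (((((nthL invB j).map qg).prod) ⟨1, lt1⟩ : Fin 4060) : ℕ) = 1 := by rw [h3]
  rw [qword_apply] at e3
  have hj0 : j = 0 := invB_inj j 0 hj (by norm_num) (by
    rw [invB_zero]
    exact e3)
  subst hj0
  rw [invB_zero, List.map_nil, List.prod_nil]

/-- the Boolean test: two words agree on the three base points -/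
noncomputable def eqW (l₁ l₂ : List ℕ) : Bool :=
  (walkA PT l₁ 2305 == walkA PT l₂ 2305) && (walkA PT l₁ 2306 == walkA PT l₂ 2306) &&
    (walkA PT l₁ 1 == walkA PT l₂ 1)

/-- all letters are below 4 -/
noncomputable def let4 (l : List ℕ) : Bool := listAll l (fun c => Nat.blt c 4)

theorem let4_spec (l : List ℕ) (h : let4 l = true) : ∀ k ∈ l, k < 4 := by
  intro k hk
  have := (listAll_iff _ _).mp h k hk
  exact Nat.blt_eq.mp this

theorem lt5_of_lt4 (l : List ℕ) (h : ∀ k ∈ l, k < 4) : ∀ k ∈ l, k < 5 :=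
  fun k hk => lt_trans (h k hk) (by norm_num)

theorem word_eq (l₁ l₂ : List ℕ) (h₁ : ∀ k ∈ l₁, k < 4) (h₂ : ∀ k ∈ l₂, k < 4)
    (h : eqW l₁ l₂ = true) : (l₁.map gen).prod = (l₂.map gen).prod := by
  have hm₁ := prod_mem_Gk gen 4 l₁ h₁
  have hm₂ := prod_mem_Gk gen 4 l₂ h₂
  unfold eqW at h
  simp only [Bool.and_eq_true, beq_iff_eq] at h
  have key : ∀ z : Fin 4060, walkA PT l₁ z.val = walkA PT l₂ z.val →
      (((l₂.map gen).prod)⁻¹ * (l₁.map gen).prod) z = z := by
    intro z hz
    have e : (l₁.map gen).prod z = (l₂.map gen).prod z := by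
      apply Fin.ext
      rw [word_apply l₁ (lt5_of_lt4 l₁ h₁), word_apply l₂ (lt5_of_lt4 l₂ h₂)]
      exact hz
    rw [Equiv.Perm.mul_apply, e, ← Equiv.Perm.mul_apply, inv_mul_cancel, Equiv.Perm.one_apply]
  have hu : ((l₂.map gen).prod)⁻¹ * (l₁.map gen).prod ∈ Q2 :=
    T_le_Q2 (Subgroup.mul_mem _ (Subgroup.inv_mem _ hm₂) hm₁)
  have h1 := base_triv _ hu (key ⟨2305, lt2305⟩ h.1.1) (key ⟨2306, lt2306⟩ h.1.2)
    (key ⟨1, lt1⟩ h.2)
  exact (inv_mul_eq_one.mp h1).symm

theorem eqW_of_eq (l₁ l₂ : List ℕ) (h₁ : ∀ k ∈ l₁, k < 4) (h₂ : ∀ k ∈ l₂, k < 4)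
    (h : (l₁.map gen).prod = (l₂.map gen).prod) : eqW l₁ l₂ = true := by
  have key : ∀ z : Fin 4060, walkA PT l₁ z.val = walkA PT l₂ z.val := by
    intro z
    rw [← word_apply l₁ (lt5_of_lt4 l₁ h₁), ← word_apply l₂ (lt5_of_lt4 l₂ h₂), h]
  unfold eqW
  simp only [Bool.and_eq_true, beq_iff_eq]
  exact ⟨⟨key ⟨2305, lt2305⟩, key ⟨2306, lt2306⟩⟩, key ⟨1, lt1⟩⟩

/-- the multiplication table of the words `W` is `M` -/
noncomputable def tblChk (W M : List (List ℕ)) (n : ℕ) : Bool :=
  allBelow n (fun i => allBelow n (fun j =>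
    Nat.blt ((nthL M i).getD j 0) n &&
      eqW (nthL W i ++ nthL W j) (nthL W ((nthL M i).getD j 0))))

/-- the words `W` are pairwise different elements -/
noncomputable def injChk (W : List (List ℕ)) (n : ℕ) : Bool :=
  allBelow n (fun i => allBelow n (fun j => (i == j) || !(eqW (nthL W i) (nthL W j))))

/-- the word `C i` conjugates the word `W i` to `W 1` -/
noncomputable def cjChk (W C : List (List ℕ)) (n : ℕ) : Bool :=
  allBelow n (fun i => (i == 0) || eqW (nthL C i ++ nthL W i) (nthL W 1 ++ nthL C i))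

noncomputable def letChk (W : List (List ℕ)) : Bool := listAll W let4

theorem letChk_spec (W : List (List ℕ)) (h : letChk W = true) (i : ℕ) (hi : i < W.length) :
    ∀ k ∈ nthL W i, k < 4 :=
  let4_spec _ ((listAll_iff _ _).mp h _ (nthL_lt_mem W i hi))

theorem mem4_append (l₁ l₂ : List ℕ) (h₁ : ∀ k ∈ l₁, k < 4) (h₂ : ∀ k ∈ l₂, k < 4) :
    ∀ k ∈ l₁ ++ l₂, k < 4 := by
  intro k hk
  rcases List.mem_append.mp hk with h | h
  · exact h₁ k h
  · exact h₂ k h

/-- a table of words gives a subgroup of the Tits group all of whose non-identity elements are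
conjugate to the second word -/
theorem tt_subgroup (W M C : List (List ℕ)) (n : ℕ) (hn : 1 < n) (hlen : W.length = n)
    (hlenC : C.length = n) (hW0 : nthL W 0 = [])
    (hl : letChk W = true) (hlc : letChk C = true) (ht : tblChk W M n = true)
    (hi : injChk W n = true) (hc : cjChk W C n = true) :
    ∃ H : Subgroup (Equiv.Perm (Fin 4060)), Nat.card H = n ∧ H ≤ Gk gen 4 ∧
      ((nthL W 1).map gen).prod ≠ 1 ∧ ((nthL W 1).map gen).prod ∈ Gk gen 4 ∧
      ∀ e ∈ H, e ≠ 1 → ∃ g ∈ Gk gen 4, g * e * g⁻¹ = ((nthL W 1).map gen).prod := by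
  have hW : ∀ i, i < n → ∀ k ∈ nthL W i, k < 4 := fun i hi' =>
    letChk_spec W hl i (by rw [hlen]; exact hi')
  have hC : ∀ i, i < n → ∀ k ∈ nthL C i, k < 4 := fun i hi' =>
    letChk_spec C hlc i (by rw [hlenC]; exact hi')
  have hinj : ∀ i < n, ∀ j < n, ((nthL W i).map gen).prod = ((nthL W j).map gen).prod → i = j := by
    intro i hi' j hj' hij
    have h1 := (allBelow_iff _ _).mp ((allBelow_iff _ _).mp hi i hi') j hj'
    simp only [Bool.or_eq_true, beq_iff_eq, Bool.not_eq_true'] at h1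
    rcases h1 with h1 | h1
    · exact h1
    · rw [eqW_of_eq _ _ (hW i hi') (hW j hj') hij] at h1
      exact absurd h1 (by decide)
  have hm : ∀ i < n, ∀ j < n, (nthL M i).getD j 0 < n ∧
      ((nthL W i).map gen).prod * ((nthL W j).map gen).prod =
        ((nthL W ((nthL M i).getD j 0)).map gen).prod := by
    intro i hi' j hj'
    have h1 := (allBelow_iff _ _).mp ((allBelow_iff _ _).mp ht i hi') j hj'
    simp only [Bool.and_eq_true] at h1
    have hlt : (nthL M i).getD j 0 < n := Nat.blt_eq.mp h1.1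
    refine ⟨hlt, ?_⟩
    rw [← List.prod_append, ← List.map_append]
    exact word_eq _ _ (mem4_append _ _ (hW i hi') (hW j hj')) (hW _ hlt) h1.2
  have h0 : ((nthL W 0).map gen).prod = 1 := by rw [hW0, List.map_nil, List.prod_nil]
  obtain ⟨H, hcard, hmem⟩ := subgroup_of_table n (fun i => ((nthL W i).map gen).prod)
    (fun i j => (nthL M i).getD j 0) (by omega) h0 hm hinj
  refine ⟨H, hcard, ?_, ?_, prod_mem_Gk gen 4 _ (hW 1 hn), ?_⟩
  · intro e he
    obtain ⟨i, hi', rfl⟩ := (hmem e).mp he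
    exact prod_mem_Gk gen 4 _ (hW i hi')
  · intro h1
    rw [← h0] at h1
    have := hinj 1 hn 0 (by omega) h1
    omega
  · intro e he he1
    obtain ⟨i, hi', rfl⟩ := (hmem e).mp he
    have hi0 : i ≠ 0 := by
      intro h
      rw [h] at he1
      exact he1 h0
    have h1 := (allBelow_iff _ _).mp hc i hi'
    simp only [Bool.or_eq_true, beq_iff_eq] at h1
    rcases h1 with h1 | h1
    · exact absurd h1 hi0
    · refine ⟨((nthL C i).map gen).prod, prod_mem_Gk gen 4 _ (hC i hi'), ?_⟩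
      have h2 := word_eq _ _ (mem4_append _ _ (hC i hi') (hW i hi'))
        (mem4_append _ _ (hW 1 hn) (hC i hi')) h1
      rw [List.map_append, List.prod_append, List.map_append, List.prod_append] at h2
      rw [h2, mul_inv_cancel_right]

theorem ttE_ok : letChk ttE = true ∧ letChk ttEc = true ∧ tblChk ttE ttEm 27 = true ∧
    injChk ttE 27 = true ∧ cjChk ttE ttEc 27 = true := by
  decide +kernel

theorem ttS_ok : letChk ttS = true ∧ letChk ttSc = true ∧ tblChk ttS ttSm 25 = true ∧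
    injChk ttS 25 = true ∧ cjChk ttS ttSc 25 = true := by
  decide +kernel

theorem ttXY_ok : let4 ttX = true ∧ let4 ttY = true ∧ eqW ttX [] = false ∧ eqW ttY [] = false ∧
    eqW (ttY ++ ttY ++ ttY) [] = true ∧ eqW (ttY ++ ttX) (ttX ++ ttX ++ ttX ++ ttY) = true := by
  decide +kernel

end Cfsg.Agent.Helper56.Tits
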