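import Cfsg.Agent.Helper56.Tits.TwoChk

/-!
# The Tits group has no faithful 2-transitive action on at least three points (helper56)

`tits_no_two_trans`: the data of `TwoChk.lean` are carried to `Cfsg.Lie.TitsGroup` by the
isomorphism `tits_struct` with the permutation group `Gk gen 4` on 4060 points, and
`no_two_trans'` applies.
-/

set_option autoImplicit false

namespace Cfsg.Agent.Helper56.Tits

open Cfsg.Lie Cfsg.Agent.Helper28 Cfsg.Agent.Helper56.J3 Cfsg.Agent.Helper56.Ru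

attribute [local irreducible] Cfsg.Agent.Helper56.Ru.gen Cfsg.Agent.Helper56.Ru.fz

theorem ttE_len : ttE.length = 27 ∧ ttEc.length = 27 ∧ nthL ttE 0 = [] := by decide +kernel

theorem ttS_len : ttS.length = 25 ∧ ttSc.length = 25 ∧ nthL ttS 0 = [] := by decide +kernel

theorem nil_lt4 : ∀ k ∈ ([] : List ℕ), k < 4 := fun _ hk => absurd hk List.not_mem_nil

theorem tits_no_two_trans {Ω : Type*} [Fintype Ω] [MulAction TitsGroup Ω]
    [FaithfulSMul TitsGroup Ω] (hΩ : 3 ≤ Fintype.card Ω) :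
    ¬ MulAction.IsMultiplyPretransitive TitsGroup Ω 2 := by
  obtain ⟨φ⟩ := tits_struct.2
  have hfin : Finite TitsGroup := Finite.of_equiv _ φ.symm.toEquiv
  have hcard : Nat.card TitsGroup = 17971200 := by
    rw [Nat.card_congr φ.toEquiv, card_G4]
  obtain ⟨ι, hιd⟩ : ∃ ι : TitsGroup →* Equiv.Perm (Fin 4060), ∀ t, ι t = (φ t : Equiv.Perm (Fin 4060)) :=
    ⟨(Gk gen 4).subtype.comp φ.toMonoidHom, fun t => rfl⟩
  have hι : Function.Injective ι := by
    intro a b hab
    rw [hιd, hιd] at hab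
    exact φ.injective (Subtype.ext hab)
  have hr : ∀ p ∈ Gk gen 4, p ∈ ι.range := by
    intro p hp
    refine ⟨φ.symm ⟨p, hp⟩, ?_⟩
    rw [hιd, MulEquiv.apply_symm_apply]
  obtain ⟨E, hE, hEle, he1, heG, hEc⟩ := tt_subgroup ttE ttEm ttEc 27 (by norm_num) ttE_len.1
    ttE_len.2.1 ttE_len.2.2 ttE_ok.1 ttE_ok.2.1 ttE_ok.2.2.1 ttE_ok.2.2.2.1 ttE_ok.2.2.2.2
  obtain ⟨S, hS, hSle, hu1, huG, hSc⟩ := tt_subgroup ttS ttSm ttSc 25 (by norm_num) ttS_len.1
    ttS_len.2.1 ttS_len.2.2 ttS_ok.1 ttS_ok.2.1 ttS_ok.2.2.1 ttS_ok.2.2.2.1 ttS_ok.2.2.2.2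
  have hXY := ttXY_ok
  have hx4 := let4_spec ttX hXY.1
  have hy4 := let4_spec ttY hXY.2.1
  have hx13 : ((ttX.map gen).prod) ^ 13 = 1 := by
    have h : (ttX.map gen).prod = gen 0 * gen 1 := by
      simp only [ttX, List.map_cons, List.map_nil, List.prod_cons, List.prod_nil, mul_one]
    rw [h]
    exact rel01
  have hx1 : (ttX.map gen).prod ≠ 1 := by
    intro h
    have h' := eqW_of_eq ttX [] hx4 nil_lt4 (by rw [h, List.map_nil, List.prod_nil])
    rw [hXY.2.2.1] at h'
    exact absurd h' (by decide)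
  have hy1 : (ttY.map gen).prod ≠ 1 := by
    intro h
    have h' := eqW_of_eq ttY [] hy4 nil_lt4 (by rw [h, List.map_nil, List.prod_nil])
    rw [hXY.2.2.2.1] at h'
    exact absurd h' (by decide)
  have hy3 : ((ttY.map gen).prod) ^ 3 = 1 := by
    have h := word_eq (ttY ++ ttY ++ ttY) [] (mem4_append _ _ (mem4_append _ _ hy4 hy4) hy4)
      nil_lt4 hXY.2.2.2.2.1
    rw [List.map_append, List.map_append, List.prod_append, List.prod_append, List.map_nil,
      List.prod_nil] at h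
    rw [pow_succ, pow_two]
    exact h
  have hxy : (ttY.map gen).prod * (ttX.map gen).prod * ((ttY.map gen).prod)⁻¹ =
      ((ttX.map gen).prod) ^ 3 := by
    have h := word_eq (ttY ++ ttX) (ttX ++ ttX ++ ttX ++ ttY) (mem4_append _ _ hy4 hx4)
      (mem4_append _ _ (mem4_append _ _ (mem4_append _ _ hx4 hx4) hx4) hy4) hXY.2.2.2.2.2
    rw [List.map_append, List.prod_append, List.map_append, List.map_append, List.map_append,
      List.prod_append, List.prod_append, List.prod_append] at h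
    rw [h, mul_inv_cancel_right, pow_succ, pow_two]
  exact no_two_trans' ι hι hcard E hE (fun e he => hr e (hEle he)) _ he1 (hr _ heG)
    (fun e he hne => by
      obtain ⟨g, hg, h⟩ := hEc e he hne
      exact ⟨g, hr g hg, h⟩)
    S hS (fun e he => hr e (hSle he)) _ (hr _ huG)
    (fun e he hne => by
      obtain ⟨g, hg, h⟩ := hSc e he hne
      exact ⟨g, hr g hg, h⟩)
    _ _ (hr _ (prod_mem_Gk gen 4 _ hx4)) (hr _ (prod_mem_Gk gen 4 _ hy4)) hx13 hx1 hy3 hy1 3 hxy hΩ

end Cfsg.Agent.Helper56.Tits
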